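import Cfsg.Agent.H296.L7.Spaces

/-!
# The involution `sg` and the skew operator `dd` (S5920)
-/

set_option autoImplicit false

namespace Cfsg.Agent.H296.L7

open Cfsg.Agent.H942.L7 Module

variable {V : Type} [AddCommGroup V] [Module (ZMod 3) V] (ρ : Representation (ZMod 3) ↥P336 V)

/-- `om - N`, an involution on `W` -/
def sg : V →ₗ[ZMod 3] V := om ρ - (LinearMap.id + ρ H0 + ρ H0 ∘ₗ ρ H0)

/-- `h - h⁻¹` -/
def dd : V →ₗ[ZMod 3] V := ρ H0 - ρ H0 ∘ₗ ρ H0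

theorem sg_apply (v : V) : sg ρ v = om ρ v - (v + ρ H0 v + ρ H0 (ρ H0 v)) := rfl

theorem dd_apply (v : V) : dd ρ v = ρ H0 v - ρ H0 (ρ H0 v) := rfl

variable {ρ} in
theorem n_sg {v : V} (hv : ρ N0 v = v) : ρ N0 (sg ρ v) = sg ρ v := by
  rw [sg_apply, map_sub, map_add, map_add, n_om, n_h (n_h hv), n_h hv, hv]

variable {ρ} in
theorem n_dd {v : V} (hv : ρ N0 v = v) : ρ N0 (dd ρ v) = dd ρ v := by
  rw [dd_apply, map_sub, n_h (n_h hv), n_h hv]

theorem r_sg (v : V) : ρ R0 (sg ρ v) = sg ρ (ρ R0 v) := by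
  simp only [sg_apply, map_sub, map_add, r_om, r_h]

theorem r_dd (v : V) : ρ R0 (dd ρ v) = dd ρ (ρ R0 v) := by
  simp only [dd_apply, map_sub, r_h]

theorem dd_sg (v : V) : dd ρ (sg ρ v) = - sg ρ (dd ρ v) := by
  simp only [sg_apply, dd_apply, map_sub, map_add, om_h, hhh]
  exact m3 (by match_scalars <;> decide)

theorem ddd (v : V) : dd ρ (dd ρ (dd ρ v)) = 0 := by
  simp only [dd_apply, map_sub, hhh]
  exact m3 (by match_scalars <;> decide)

variable {ρ} in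
theorem sg_sg {v : V} (hv : ρ N0 v = v) : sg ρ (sg ρ v) = v := by
  simp only [sg_apply, map_sub, map_add, om_h, hhh, om_om hv]
  exact m3 (by match_scalars <;> decide)

/-! ### the form -/

section Form

variable (B : LinearMap.BilinForm (ZMod 3) V) (hB : B.Nondegenerate) (hs : B.IsSymm)
  (hi : ∀ g v v', B (ρ g v) (ρ g v') = B v v')

include hi in
variable {ρ B} in
theorem B_h (u v : V) : B u (ρ H0 v) = B (ρ H0 (ρ H0 u)) v := by
  have h := hi H0 (ρ H0 (ρ H0 u)) v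
  rw [hhh] at h
  exact h

include hi in
variable {ρ B} in
theorem B_hh (u v : V) : B u (ρ H0 (ρ H0 v)) = B (ρ H0 u) v := by
  rw [B_h hi, B_h hi, hhh]

include hi in
variable {ρ B} in
theorem B_r (u v : V) : B u (ρ R0 v) = B (ρ R0 u) v := by
  have h := hi R0 (ρ R0 u) v
  rw [rr] at h
  exact h

include hi in
variable {ρ B} in
theorem B_w (u v : V) : B u (ρ W0 v) = B (ρ W0 u) v := by
  have h := hi W0 (ρ W0 u) v
  rw [← rmul, WW, rone] at h
  exact h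

include hi in
variable {ρ B} in
theorem B_ee {u : V} (hu : ρ N0 u = u) (v : V) : B u (ee ρ v) = B u v := by
  have h : ∀ i, B u (ρ (N0 ^ i) v) = B u v := by
    intro i
    have h1 := hi (N0 ^ i) u v
    rwa [npow_fix hu] at h1
  rw [ee_apply]
  simp only [map_add, h]
  exact m3 (by match_scalars; decide)

include hi in
variable {ρ B} in
theorem B_dd (u v : V) : B u (dd ρ v) = - B (dd ρ u) v := by
  simp only [dd_apply, map_sub, LinearMap.sub_apply, B_h hi, hhh]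
  ring

include hi hs in
variable {ρ B} in
theorem B_sg {u z : V} (hu : ρ N0 u = u) (hz : ρ N0 z = z) : B u (sg ρ z) = B (sg ρ u) z := by
  have h1 : B u (om ρ z) = B (om ρ u) z := by
    rw [om_apply, B_ee hi hu, B_w hi, om_apply, hs.eq (ee ρ (ρ W0 u)) z, B_ee hi hz, hs.eq]
  simp only [sg_apply, map_sub, map_add, LinearMap.sub_apply, LinearMap.add_apply, h1, B_h hi, hhh]
  ring

/-- nondegeneracy on `M` from a self-adjoint projection onto `M` -/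
theorem nondeg {B : LinearMap.BilinForm (ZMod 3) V} (hB : B.Nondegenerate) (M : Submodule (ZMod 3) V) (T : V → V)
    (hT : ∀ x, T x ∈ M) (hTB : ∀ u ∈ M, ∀ x, B u (T x) = B u x) :
    ∀ u ∈ M, (∀ v ∈ M, B u v = 0) → u = 0 := by
  intro u hu h
  refine hB.1 u fun x => ?_
  rw [← hTB u hu]
  exact h _ (hT x)

end Form

/-! ### the four eigenspaces -/

/-- the vectors of `W` with `r = ε` and `sg = δ` -/
def XX (ε δ : ZMod 3) : Submodule (ZMod 3) V := eig (eig (fixS ρ U7) (ρ R0) ε) (sg ρ) δ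

theorem mem_XX {ε δ : ZMod 3} {v : V} : v ∈ XX ρ ε δ ↔ ρ N0 v = v ∧ ρ R0 v = ε • v ∧ sg ρ v = δ • v := by
  rw [XX, mem_eig, mem_eig, mem_U7, and_assoc]

/-- the projection onto `XX ε δ` -/
def PP (ε δ : ZMod 3) : V →ₗ[ZMod 3] V :=
  (LinearMap.id + ε • ρ R0) ∘ₗ (ee ρ + δ • (sg ρ ∘ₗ ee ρ))

theorem PP_apply (ε δ : ZMod 3) (x : V) : PP ρ ε δ x = (ee ρ x + δ • sg ρ (ee ρ x)) +
    ε • ρ R0 (ee ρ x + δ • sg ρ (ee ρ x)) := rfl

variable {ρ} in
theorem PP_mem {ε δ : ZMod 3} (hε : ε * ε = 1) (hδ : δ * δ = 1) (x : V) : PP ρ ε δ x ∈ XX ρ ε δ := by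
  have hn := n_ee ρ x
  rw [mem_XX, PP_apply]
  obtain ⟨y, hy⟩ : ∃ y, y = ee ρ x := ⟨_, rfl⟩
  rw [← hy] at hn ⊢
  have h1 : ρ N0 (y + δ • sg ρ y) = y + δ • sg ρ y := by rw [map_add, map_smul, n_sg hn, hn]
  have h2 : sg ρ (y + δ • sg ρ y) = δ • (y + δ • sg ρ y) := by
    rw [map_add, map_smul, sg_sg hn, smul_add, smul_smul, hδ, one_smul, add_comm]
  generalize y + δ • sg ρ y = z at h1 h2
  refine ⟨?_, ?_, ?_⟩
  · rw [map_add, map_smul, n_r h1, h1]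
  · rw [map_add, map_smul, rr, smul_add, smul_smul, hε, one_smul, add_comm]
  · rw [map_add, map_smul, ← r_sg, h2, map_smul, smul_add, smul_comm]

variable {ρ} in
theorem PP_fix {ε δ : ZMod 3} (hε : ε * ε = 1) (hδ : δ * δ = 1) {x : V} (hx : x ∈ XX ρ ε δ) : PP ρ ε δ x = x := by
  obtain ⟨h1, h2, h3⟩ := (mem_XX ρ).1 hx
  rw [PP_apply, ee_fix h1, h3, smul_smul, hδ, one_smul, map_add, h2, ← smul_add, smul_smul, hε, one_smul]
  exact m3 (by match_scalars; decide)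

theorem PP_B {B : LinearMap.BilinForm (ZMod 3) V} (hs : B.IsSymm) (hi : ∀ g v v', B (ρ g v) (ρ g v') = B v v')
    {ε δ : ZMod 3} (hε : ε * ε = 1) (hδ : δ * δ = 1) (u : V) (hu : u ∈ XX ρ ε δ) (x : V) :
    B u (PP ρ ε δ x) = B u x := by
  obtain ⟨h1, h2, h3⟩ := (mem_XX ρ).1 hu
  have e1 : ∀ z, B u (ρ R0 z) = ε * B u z := by
    intro z
    rw [B_r hi, h2, map_smul, LinearMap.smul_apply, smul_eq_mul]
  have e2 : B u (sg ρ (ee ρ x)) = δ * B u x := by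
    rw [B_sg hs hi h1 (n_ee ρ x), h3, map_smul, LinearMap.smul_apply, smul_eq_mul, B_ee hi h1]
  rw [PP_apply, map_add, map_add, map_smul, map_smul, e1, map_add, map_smul, e2, B_ee hi h1]
  simp only [smul_eq_mul]
  have e3 : B u x + δ * (δ * B u x) + ε * (ε * (B u x + δ * (δ * B u x))) =
      (1 + δ * δ) * (1 + ε * ε) * B u x := by ring
  rw [e3, hε, hδ]
  have e4 : ((1 : ZMod 3) + 1) * (1 + 1) = 1 := by decide
  rw [e4, one_mul]

/-- **the inequality on `W^ε`** -/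
theorem ineq_W [Module.Finite (ZMod 3) V] {B : LinearMap.BilinForm (ZMod 3) V} (hB : B.Nondegenerate) (hs : B.IsSymm)
    (hi : ∀ g v v', B (ρ g v) (ρ g v') = B v v') {ε : ZMod 3} (hε : ε * ε = 1) :
    2 * finrank (ZMod 3) (XX ρ ε 1) ≤ finrank (ZMod 3) (XX ρ ε (-1)) +
      3 * finrank (ZMod 3) ↥(XX ρ ε 1 ⊓ LinearMap.ker (dd ρ)) := by
  have hm : ((-1 : ZMod 3)) * (-1) = 1 := by decide
  refine ineq B hB hs (XX ρ ε 1) (XX ρ ε (-1)) (dd ρ) ?_ ?_ (fun v _ => ddd ρ v) (fun u _ v _ => B_dd hi u v)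
    (nondeg hB _ (PP ρ ε (-1)) (PP_mem hε hm) (fun u hu x => PP_B ρ hs hi hε hm u hu x))
  · intro v hv
    obtain ⟨h1, h2, h3⟩ := (mem_XX ρ).1 hv
    refine (mem_XX ρ).2 ⟨n_dd h1, by rw [r_dd, h2, map_smul], ?_⟩
    have h4 := dd_sg ρ v
    rw [h3, one_smul] at h4
    rw [neg_smul, one_smul]
    exact neg_eq_iff_eq_neg.1 h4.symm
  · intro v hv
    obtain ⟨h1, h2, h3⟩ := (mem_XX ρ).1 hv
    refine (mem_XX ρ).2 ⟨n_dd h1, by rw [r_dd, h2, map_smul], ?_⟩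
    have h4 := dd_sg ρ v
    rw [h3, neg_smul, one_smul, map_neg, neg_inj] at h4
    rw [one_smul, ← h4]

variable {ρ} in
/-- vectors of `W₊` killed by `d` are invariants of `P168` -/
theorem inv_of_ker {v : V} (h1 : ρ N0 v = v) (h2 : sg ρ v = v) (h3 : dd ρ v = 0) :
    ρ H0 v = v ∧ ρ W0 v = v := by
  have h4 : ρ H0 v = v := by
    rw [dd_apply, sub_eq_zero] at h3
    have h5 := congrArg (fun x => ρ H0 (ρ H0 x)) h3
    simp only [hhh] at h5
    exact h5.symm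
  refine ⟨h4, ?_⟩
  have h5 : om ρ v = v := by
    rw [sg_apply, h4, h4] at h2
    have e : v + v + v = 0 := m3 (by match_scalars; decide)
    rwa [e, sub_zero] at h2
  -- `w v`
  have hW : ∀ i, ρ (N0 ^ i) (ρ W0 v) = ρ (N0 ^ i * W0) v := fun i => (rmul ρ _ _ v).symm
  have hww : ρ W0 (ρ W0 v) = v := by rw [← rmul, WW, rone]
  have hhw : ρ H0 (ρ W0 v) = ρ W0 v := by
    have e : H0 * W0 = W0 * (H0 * H0) := Subtype.ext (by decide)
    rw [← rmul, e, rmul, rmul, h4, h4]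
  have k : ∀ i a : ℕ, W0 * (N0 ^ i * W0) = N0 ^ a * (W0 * N0 ^ a) ∨ W0 * (N0 ^ i * W0) = N0 ^ a * (H0 * (W0 * N0 ^ a)) ∨
      W0 * (N0 ^ i * W0) = N0 ^ a * (H0 * (H0 * (W0 * N0 ^ a))) →
      ρ W0 (ρ (N0 ^ i) (ρ W0 v)) = ρ (N0 ^ a) (ρ W0 v) := by
    intro i a h
    rw [hW, ← rmul]
    rcases h with h | h | h
    · rw [h, rmul, rmul, npow_fix h1]
    · rw [h, rmul, rmul, rmul, npow_fix h1, hhw]
    · rw [h, rmul, rmul, rmul, rmul, npow_fix h1, hhw, hhw]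
  have k1 := k 1 6 (Or.inl w1)
  have k2 := k 2 3 (Or.inr (Or.inl w2))
  have k3 := k 3 2 (Or.inr (Or.inr w3))
  have k4 := k 4 5 (Or.inr (Or.inr w4))
  have k5 := k 5 4 (Or.inr (Or.inl w5))
  have k6 := k 6 1 (Or.inl w6)
  rw [om_apply, ee_apply] at h5
  have h6 := congrArg (ρ W0) h5
  simp only [map_add] at h6
  rw [k1, k2, k3, k4, k5, k6] at h6
  simp only [pow_zero, rone] at h5 h6
  rw [hww] at h6
  -- `h6 : v + (sum over a ≠ 0) = w v`, `h5 : w v + (sum over a ≠ 0) = v`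
  generalize ρ W0 v = y at *
  generalize ρ (N0 ^ 1) y = y1 at *
  generalize ρ (N0 ^ 2) y = y2 at *
  generalize ρ (N0 ^ 3) y = y3 at *
  generalize ρ (N0 ^ 4) y = y4 at *
  generalize ρ (N0 ^ 5) y = y5 at *
  generalize ρ (N0 ^ 6) y = y6 at *
  have h7 : y - v = v - y := by
    have e1 : y1 + y2 + y3 + y4 + y5 + y6 = v - y := by rw [← h5]; abel
    have e2 : y1 + y2 + y3 + y4 + y5 + y6 = y - v := by rw [← h6]; abel
    rw [← e2, e1]
  have h8 : (2 : ZMod 3) • (y - v) = 0 := by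
    rw [two_smul]
    nth_rewrite 1 [h7]
    abel
  exact sub_eq_zero.1 ((smul_eq_zero.1 h8).resolve_left (by decide))

end Cfsg.Agent.H296.L7
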