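import Mathlib

/-!
# Linear algebra for `RepH` (S5920)

* `eig S τ c` : the vectors `v` of `S` with `τ v = c v`; `split` : an involution splits a subspace;
* `ineq` : `2 dim P ≤ dim M + 3 dim (P ∩ ker d)`, `d : P → M → P` skew with `d ^ 3 = 0`, the form nondegenerate on `M`;
* `inj_le` : counting; `tr_proj` : the trace of a projection; `tr_nil` : the trace of a nilpotent map.
-/

set_option autoImplicit false

namespace Cfsg.Agent.H296.L7

open Module

section Lin

variable {K V : Type*} [Field K] [AddCommGroup V] [Module K V] [Module.Finite K V]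

/-- the part of `S` where `τ = c` -/
def eig (S : Submodule K V) (τ : V →ₗ[K] V) (c : K) : Submodule K V := S ⊓ LinearMap.ker (τ - c • LinearMap.id)

omit [Module.Finite K V] in
theorem mem_eig {S : Submodule K V} {τ : V →ₗ[K] V} {c : K} {v : V} : v ∈ eig S τ c ↔ v ∈ S ∧ τ v = c • v := by
  simp [eig, sub_eq_zero]

/-- **splitting by an involution** -/
theorem split (h2 : (2 : K) ≠ 0) (S : Submodule K V) (τ : V →ₗ[K] V) (hτ : ∀ v ∈ S, τ v ∈ S)
    (hτ2 : ∀ v ∈ S, τ (τ v) = v) : finrank K (eig S τ 1) + finrank K (eig S τ (-1)) = finrank K S := by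
  rw [← Submodule.finrank_sup_add_finrank_inf_eq]
  have h1 : eig S τ 1 ⊓ eig S τ (-1) = ⊥ := by
    rw [eq_bot_iff]
    rintro v ⟨h3, h4⟩
    have h5 := (mem_eig.1 h3).2
    have h6 := (mem_eig.1 h4).2
    rw [h5, one_smul, neg_smul, one_smul] at h6
    have h7 : (2 : K) • v = 0 := by
      rw [two_smul]
      nth_rewrite 1 [h6]
      exact neg_add_cancel v
    exact (Submodule.mem_bot K).2 ((smul_eq_zero.1 h7).resolve_left h2)
  have h3 : eig S τ 1 ⊔ eig S τ (-1) = S := by
    apply le_antisymm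
    · exact sup_le inf_le_left inf_le_left
    · intro v hv
      rw [Submodule.mem_sup]
      refine ⟨(2 : K)⁻¹ • (v + τ v), mem_eig.2 ⟨S.smul_mem _ (S.add_mem hv (hτ v hv)), ?_⟩,
        (2 : K)⁻¹ • (v - τ v), mem_eig.2 ⟨S.smul_mem _ (S.sub_mem hv (hτ v hv)), ?_⟩, ?_⟩
      · rw [map_smul, map_add, hτ2 v hv, one_smul, add_comm]
      · rw [map_smul, map_sub, hτ2 v hv, neg_smul, one_smul, ← smul_neg, neg_sub]
      · rw [← smul_add, add_add_sub_cancel, ← two_smul K v, smul_smul, inv_mul_cancel₀ h2, one_smul]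
  rw [h1, h3, finrank_bot, add_zero]

/-- rank and nullity on a subspace -/
theorem rk (f : V →ₗ[K] V) (S : Submodule K V) :
    finrank K (S.map f) + finrank K ↥(S ⊓ LinearMap.ker f) = finrank K S := by
  have h := LinearMap.finrank_range_add_finrank_ker (f.domRestrict S)
  rw [LinearMap.range_domRestrict] at h
  have h2 : finrank K (LinearMap.ker (f.domRestrict S)) = finrank K ↥(S ⊓ LinearMap.ker f) := by
    have e : LinearMap.ker (f.domRestrict S) = (S ⊓ LinearMap.ker f).comap S.subtype := by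
      ext x
      simp
    rw [e]
    exact LinearEquiv.finrank_eq (Submodule.comapSubtypeEquivOfLe inf_le_left)
  rw [← h2]
  exact h

/-- **the inequality of the skew operator** -/
theorem ineq (B : LinearMap.BilinForm K V) (hB : B.Nondegenerate) (hs : B.IsSymm) (P M : Submodule K V)
    (d : V →ₗ[K] V) (hPM : ∀ v ∈ P, d v ∈ M) (hMP : ∀ v ∈ M, d v ∈ P) (h3 : ∀ v ∈ P, d (d (d v)) = 0)
    (hsk : ∀ u ∈ M, ∀ v ∈ P, B u (d v) = - B (d u) v) (hM : ∀ u ∈ M, (∀ v ∈ M, B u v = 0) → u = 0) :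
    2 * finrank K P ≤ finrank K M + 3 * finrank K ↥(P ⊓ LinearMap.ker d) := by
  have e1 := rk d P
  have e2 := rk d (P.map d)
  have hX : P.map d ≤ M := by
    rintro _ ⟨v, hv, rfl⟩
    exact hPM v hv
  have i1 : finrank K ↥((P.map d).map d) ≤ finrank K ↥(P ⊓ LinearMap.ker d) := by
    apply Submodule.finrank_mono
    rintro _ ⟨x, hx, rfl⟩
    refine ⟨hMP x (hX hx), ?_⟩
    obtain ⟨v, hv, rfl⟩ := hx
    exact LinearMap.mem_ker.2 (h3 v hv)
  have i2 : finrank K ↥(P.map d ⊓ LinearMap.ker d) ≤ finrank K ↥(M ⊓ LinearMap.ker d) :=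
    Submodule.finrank_mono (inf_le_inf_right _ hX)
  have i3 : finrank K ↥(M ⊓ LinearMap.ker d) + finrank K ↥(P.map d) ≤ finrank K M := by
    have f1 := LinearMap.BilinForm.finrank_orthogonal hB M
    have f2 := LinearMap.BilinForm.finrank_orthogonal hB (P.map d)
    have g1 : M ⊓ LinearMap.ker d ≤ B.orthogonal (P.map d) := by
      rintro k ⟨hk, hk0⟩
      rw [LinearMap.BilinForm.mem_orthogonal_iff]
      rintro _ ⟨v, hv, rfl⟩
      show B (d v) k = 0
      rw [hs.eq (d v) k, hsk k hk v hv, LinearMap.mem_ker.1 hk0]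
      simp
    have g2 : B.orthogonal M ≤ B.orthogonal (P.map d) := LinearMap.BilinForm.orthogonal_le hX
    have g3 : (M ⊓ LinearMap.ker d) ⊓ B.orthogonal M = ⊥ := by
      rw [eq_bot_iff]
      rintro k ⟨hk, hk0⟩
      refine (Submodule.mem_bot K).2 (hM k hk.1 fun v hv => ?_)
      rw [hs.eq]
      exact LinearMap.BilinForm.mem_orthogonal_iff.1 hk0 v hv
    have g4 := Submodule.finrank_sup_add_finrank_inf_eq (M ⊓ LinearMap.ker d) (B.orthogonal M)
    rw [g3, finrank_bot, add_zero] at g4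
    have g5 := Submodule.finrank_mono (sup_le g1 g2)
    have g6 := Submodule.finrank_le M
    have g7 := Submodule.finrank_le (P.map d)
    omega
  omega

/-- counting -/
theorem inj_le (S₁ S₂ T : Submodule K V) (f g : V →ₗ[K] V) (h : ∀ v ∈ S₁, ∀ a ∈ S₂, f v + g a ∈ T)
    (hi : ∀ v ∈ S₁, ∀ a ∈ S₂, f v + g a = 0 → v = 0 ∧ a = 0) :
    finrank K S₁ + finrank K S₂ ≤ finrank K T := by
  let F : ↥S₁ × ↥S₂ →ₗ[K] ↥T :=
    { toFun := fun x => ⟨f x.1 + g x.2, h x.1 x.1.2 x.2 x.2.2⟩
      map_add' := fun x y => by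
        apply Subtype.ext
        simp only [Prod.fst_add, Prod.snd_add, Submodule.coe_add, map_add]
        abel
      map_smul' := fun c x => by
        apply Subtype.ext
        simp }
  have hF : Function.Injective F := by
    rw [← LinearMap.ker_eq_bot, eq_bot_iff]
    rintro ⟨v, a⟩ hx
    have h1 : f v + g a = 0 := congrArg Subtype.val (LinearMap.mem_ker.1 hx)
    obtain ⟨h2, h3⟩ := hi v v.2 a a.2 h1
    exact (Submodule.mem_bot K).2 (Prod.ext (Subtype.ext h2) (Subtype.ext h3))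
  have h1 := LinearMap.finrank_le_finrank_of_injective hF
  rwa [finrank_prod] at h1

/-- the trace of a projection -/
theorem tr_proj (p : V →ₗ[K] V) (S : Submodule K V) (h1 : ∀ x, p x ∈ S) (h2 : ∀ x ∈ S, p x = x) :
    LinearMap.trace K V p = (finrank K S : K) :=
  LinearMap.IsProj.trace ⟨h1, h2⟩

omit [Module.Finite K V] in
/-- the trace of a nilpotent map -/
theorem tr_nil (f : V →ₗ[K] V) (k : ℕ) (h : f ^ k = 0) : LinearMap.trace K V f = 0 :=
  (LinearMap.isNilpotent_trace_of_isNilpotent ⟨k, h⟩).eq_zero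

end Lin

end Cfsg.Agent.H296.L7
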