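import Cfsg.Agent.H296.L7.Lin
import Cfsg.Agent.H296.L7.Elts

/-!
# The operators `h`, `om`, `r` on the space `W` of vectors fixed by `U₇` (S5920)
-/

set_option autoImplicit false

namespace Cfsg.Agent.H296.L7

open Cfsg.Agent.H942.L7 Module

variable {V : Type} [AddCommGroup V] [Module (ZMod 3) V] (ρ : Representation (ZMod 3) ↥P336 V)

omit [Module (ZMod 3) V] in
theorem m3 [Module (ZMod 3) V] {x y : V} (h : (1 : ZMod 3) • x = (1 : ZMod 3) • y) : x = y := by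
  rwa [one_smul, one_smul] at h

theorem rmul (g g' : ↥P336) (v : V) : ρ (g * g') v = ρ g (ρ g' v) := by
  rw [map_mul]; rfl

theorem rone (v : V) : ρ 1 v = v := by
  rw [map_one]; rfl

/-- the sum of the powers of `n` -/
def ee : V →ₗ[ZMod 3] V := ρ (N0 ^ 0) + ρ (N0 ^ 1) + ρ (N0 ^ 2) + ρ (N0 ^ 3) + ρ (N0 ^ 4) + ρ (N0 ^ 5) + ρ (N0 ^ 6)

theorem ee_apply (v : V) : ee ρ v = ρ (N0 ^ 0) v + ρ (N0 ^ 1) v + ρ (N0 ^ 2) v + ρ (N0 ^ 3) v + ρ (N0 ^ 4) v +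
    ρ (N0 ^ 5) v + ρ (N0 ^ 6) v := rfl

theorem npow (i j : ℕ) (v : V) : ρ (N0 ^ i) (ρ (N0 ^ j) v) = ρ (N0 ^ (i + j)) v := by
  rw [pow_add, rmul]

theorem npow7 (i : ℕ) (v : V) : ρ (N0 ^ (i + 7)) v = ρ (N0 ^ i) v := by
  rw [pow_add, N7, mul_one]

theorem n_ee (v : V) : ρ N0 (ee ρ v) = ee ρ v := by
  have h : ∀ i, ρ N0 (ρ (N0 ^ i) v) = ρ (N0 ^ (i + 1)) v := fun i => by rw [← rmul, ← pow_succ']
  simp only [ee_apply, map_add, h]
  rw [show N0 ^ (6 + 1) = N0 ^ 0 from by rw [N7, pow_zero]]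
  abel

theorem ee_n (v : V) : ee ρ (ρ N0 v) = ee ρ v := by
  have h : ∀ i, ρ (N0 ^ i) (ρ N0 v) = ρ (N0 ^ (i + 1)) v := fun i => by rw [← rmul, ← pow_succ]
  simp only [ee_apply, h]
  rw [show N0 ^ (6 + 1) = N0 ^ 0 from by rw [N7, pow_zero]]
  abel

theorem ee_npow (i : ℕ) (v : V) : ee ρ (ρ (N0 ^ i) v) = ee ρ v := by
  induction i with
  | zero => rw [pow_zero, rone]
  | succ i ih => rw [pow_succ', rmul, ee_n, ih]

theorem npow_ee (i : ℕ) (v : V) : ρ (N0 ^ i) (ee ρ v) = ee ρ v := by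
  induction i with
  | zero => rw [pow_zero, rone]
  | succ i ih => rw [pow_succ', rmul, ih, n_ee]

variable {ρ} in
theorem npow_fix {v : V} (hv : ρ N0 v = v) (i : ℕ) : ρ (N0 ^ i) v = v := by
  induction i with
  | zero => rw [pow_zero, rone]
  | succ i ih => rw [pow_succ', rmul, ih, hv]

variable {ρ} in
theorem ee_fix {v : V} (hv : ρ N0 v = v) : ee ρ v = v := by
  simp only [ee_apply, npow_fix hv]
  exact m3 (by match_scalars <;> decide)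

theorem ee_ee (v : V) : ee ρ (ee ρ v) = ee ρ v := ee_fix (n_ee ρ v)

theorem h_ee (v : V) : ρ H0 (ee ρ v) = ee ρ (ρ H0 v) := by
  have h : ∀ i, ρ H0 (ρ (N0 ^ i) v) = ρ (N0 ^ (2 * i)) (ρ H0 v) := by
    intro i
    induction i with
    | zero => simp
    | succ i ih =>
      have e : H0 * N0 ^ (i + 1) = N0 ^ 2 * (H0 * N0 ^ i) := by
        rw [pow_succ', ← mul_assoc, HN, mul_assoc]
      rw [← rmul, e, rmul, rmul, ih, npow]
      congr 2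
      ring_nf
  simp only [ee_apply, map_add, h]
  norm_num only
  have h8 := npow7 ρ 1 (ρ H0 v)
  have h10 := npow7 ρ 3 (ρ H0 v)
  have h12 := npow7 ρ 5 (ρ H0 v)
  norm_num only at h8 h10 h12
  rw [h8, h10, h12]
  abel

theorem r_ee (v : V) : ρ R0 (ee ρ v) = ee ρ (ρ R0 v) := by
  have h : ∀ i, ρ R0 (ρ (N0 ^ i) v) = ρ (N0 ^ (6 * i)) (ρ R0 v) := by
    intro i
    induction i with
    | zero => simp
    | succ i ih =>
      have e : R0 * N0 ^ (i + 1) = N0 ^ 6 * (R0 * N0 ^ i) := by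
        rw [pow_succ', ← mul_assoc, RN, mul_assoc]
      rw [← rmul, e, rmul, rmul, ih, npow]
      congr 2
      ring_nf
  simp only [ee_apply, map_add, h]
  norm_num only
  have e : ∀ i j, ρ (N0 ^ (i + 7 * j)) (ρ R0 v) = ρ (N0 ^ i) (ρ R0 v) := by
    intro i j
    rw [pow_add, pow_mul, N7, one_pow, mul_one]
  have h12 := e 5 1
  have h18 := e 4 2
  have h24 := e 3 3
  have h30 := e 2 4
  have h36 := e 1 5
  norm_num only at h12 h18 h24 h30 h36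
  rw [h12, h18, h24, h30, h36]
  abel

/-- the Hecke operator -/
def om : V →ₗ[ZMod 3] V := ee ρ ∘ₗ ρ W0

theorem om_apply (v : V) : om ρ v = ee ρ (ρ W0 v) := rfl

theorem n_om (v : V) : ρ N0 (om ρ v) = om ρ v := n_ee ρ _

theorem om_h (v : V) : om ρ (ρ H0 v) = ρ H0 (ρ H0 (om ρ v)) := by
  rw [om_apply, ← rmul, WH, rmul, rmul, ← h_ee, ← h_ee, om_apply]

theorem hhh (v : V) : ρ H0 (ρ H0 (ρ H0 v)) = v := by
  rw [← rmul, ← rmul, mul_assoc, HHH, rone]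

theorem rr (v : V) : ρ R0 (ρ R0 v) = v := by
  rw [← rmul, RR, rone]

theorem r_h (v : V) : ρ R0 (ρ H0 v) = ρ H0 (ρ R0 v) := by
  rw [← rmul, RH, rmul]

theorem r_om (v : V) : ρ R0 (om ρ v) = om ρ (ρ R0 v) := by
  rw [om_apply, r_ee, ← rmul, RW, rmul, om_apply]

variable {ρ} in
theorem n_h {v : V} (hv : ρ N0 v = v) : ρ N0 (ρ H0 v) = ρ H0 v := by
  have e : N0 * H0 = H0 * N0 ^ 4 := Subtype.ext (by decide)
  rw [← rmul, e, rmul, npow_fix hv]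

variable {ρ} in
theorem n_r {v : V} (hv : ρ N0 v = v) : ρ N0 (ρ R0 v) = ρ R0 v := by
  have e : N0 * R0 = R0 * N0 ^ 6 := Subtype.ext (by decide)
  rw [← rmul, e, rmul, npow_fix hv]

variable {ρ} in
/-- `e g v` for `g = n ^ i h ^ j w n ^ k`, `v` fixed by `n` -/
theorem e_word {v : V} (hv : ρ N0 v = v) (i k : ℕ) :
    ee ρ (ρ (N0 ^ i * (W0 * N0 ^ k)) v) = om ρ v ∧
    ee ρ (ρ (N0 ^ i * (H0 * (W0 * N0 ^ k))) v) = ρ H0 (om ρ v) ∧
    ee ρ (ρ (N0 ^ i * (H0 * (H0 * (W0 * N0 ^ k)))) v) = ρ H0 (ρ H0 (om ρ v)) := by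
  refine ⟨?_, ?_, ?_⟩
  · rw [rmul, ee_npow, rmul, npow_fix hv, om_apply]
  · rw [rmul, ee_npow, rmul, rmul, npow_fix hv, ← h_ee, om_apply]
  · rw [rmul, ee_npow, rmul, rmul, rmul, npow_fix hv, ← h_ee, ← h_ee, om_apply]

variable {ρ} in
/-- `om² = 1 - N om` on `W` -/
theorem om_om {v : V} (hv : ρ N0 v = v) :
    om ρ (om ρ v) = v - om ρ v - ρ H0 (om ρ v) - ρ H0 (ρ H0 (om ρ v)) := by
  have k0 : ee ρ (ρ W0 (ρ (N0 ^ 0) (ρ W0 v))) = v := by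
    rw [pow_zero, rone, ← rmul, WW, rone, ee_fix hv]
  have key : ∀ i, ee ρ (ρ W0 (ρ (N0 ^ i) (ρ W0 v))) = ee ρ (ρ (W0 * (N0 ^ i * W0)) v) := by
    intro i
    rw [rmul, rmul]
  have k1 := (e_word hv 6 6).1
  have k2 := (e_word hv 3 3).2.1
  have k3 := (e_word hv 2 2).2.2
  have k4 := (e_word hv 5 5).2.2
  have k5 := (e_word hv 4 4).2.1
  have k6 := (e_word hv 1 1).1
  rw [← w1, ← key] at k1
  rw [← w2, ← key] at k2
  rw [← w3, ← key] at k3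
  rw [← w4, ← key] at k4
  rw [← w5, ← key] at k5
  rw [← w6, ← key] at k6
  have e1 : om ρ (om ρ v) = ee ρ (ρ W0 (ee ρ (ρ W0 v))) := rfl
  rw [e1, ee_apply ρ (ρ W0 v)]
  simp only [map_add]
  rw [k0, k1, k2, k3, k4, k5, k6]
  exact m3 (by match_scalars <;> decide)

end Cfsg.Agent.H296.L7
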