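import Cfsg.Agent.H296.L7.Small

/-!
# `RepH` (S5920): no module of `PGL₂(7)` over `F₃` with the given data
-/

set_option autoImplicit false

namespace Cfsg.Agent.H296.L7

open Cfsg.Agent.H942.L7 Module

section Orders

theorem ne_sub {x y : ↥P336} (h : (x : Equiv.Perm (Fin 8)) ≠ y) : x ≠ y := fun e => h (congrArg Subtype.val e)

theorem ord_W0 : orderOf W0 = 2 := by
  have : Fact (Nat.Prime 2) := ⟨Nat.prime_two⟩
  exact orderOf_eq_prime (by rw [pow_two, WW]) (ne_sub (by decide))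

theorem ord_seven {x : ↥P336} (h : x ^ 7 = 1) (h1 : x ≠ 1) : orderOf x = 7 := by
  have : Fact (Nat.Prime 7) := ⟨by norm_num⟩
  exact orderOf_eq_prime h h1

theorem ord_four {x : ↥P336} (h : x ^ 4 = 1) (h1 : x ^ 2 ≠ 1) : orderOf x = 4 := by
  have : Fact (Nat.Prime 2) := ⟨Nat.prime_two⟩
  exact orderOf_eq_prime_pow (p := 2) (n := 1) h1 h

theorem ord_eight {x : ↥P336} (h : x ^ 8 = 1) (h1 : x ^ 4 ≠ 1) : orderOf x = 8 := by
  have : Fact (Nat.Prime 2) := ⟨Nat.prime_two⟩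
  exact orderOf_eq_prime_pow (p := 2) (n := 2) h1 h

end Orders

variable {V : Type} [AddCommGroup V] [Module (ZMod 3) V] (ρ : Representation (ZMod 3) ↥P336 V)

/-- the trace of `om` on `W` -/
theorem tr_T [Module.Finite (ZMod 3) V] (hV : finrank (ZMod 3) V = 248)
    (t2 : ∀ g : ↥P336, orderOf g = 2 → (g : Equiv.Perm (Fin 8)) ∈ P168 → LinearMap.trace (ZMod 3) V (ρ g) = 1)
    (t4 : ∀ g : ↥P336, orderOf g = 4 → LinearMap.trace (ZMod 3) V (ρ g) = 0)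
    (t7 : ∀ g : ↥P336, orderOf g = 7 → LinearMap.trace (ZMod 3) V (ρ g) = 0) :
    LinearMap.trace (ZMod 3) V (om ρ ∘ₗ ee ρ) = 2 := by
  have h := tr_om ρ 1 (fun v => by rw [rone, rone])
  have e : ρ 1 ∘ₗ om ρ ∘ₗ ee ρ = om ρ ∘ₗ ee ρ := by rw [map_one]; rfl
  have h3 : ∀ c : ↥P336, c * (c * c) = 1 → tr ρ c = 2 := by
    intro c hc
    have h4 := tr_unip ρ 1 c (by rw [one_mul, mul_one]) hc
    rw [one_mul, tr_one, hV] at h4
    rw [h4]
    decide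
  have k0 : tr ρ (W0 * (N0 ^ 0 * 1)) = 1 := by
    rw [pow_zero, one_mul, mul_one]
    exact t2 W0 ord_W0 (Subgroup.subset_closure (by simp [coe_W0]))
  have k1 : tr ρ (W0 * (N0 ^ 1 * 1)) = 2 := h3 _ (Subtype.ext (by decide +kernel))
  have k2 : tr ρ (W0 * (N0 ^ 2 * 1)) = 0 := t7 _ (ord_seven (Subtype.ext (by decide +kernel)) (ne_sub (by decide +kernel)))
  have k3 : tr ρ (W0 * (N0 ^ 3 * 1)) = 0 := t4 _ (ord_four (Subtype.ext (by decide +kernel)) (ne_sub (by decide +kernel)))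
  have k4 : tr ρ (W0 * (N0 ^ 4 * 1)) = 0 := t4 _ (ord_four (Subtype.ext (by decide +kernel)) (ne_sub (by decide +kernel)))
  have k5 : tr ρ (W0 * (N0 ^ 5 * 1)) = 0 := t7 _ (ord_seven (Subtype.ext (by decide +kernel)) (ne_sub (by decide +kernel)))
  have k6 : tr ρ (W0 * (N0 ^ 6 * 1)) = 2 := h3 _ (Subtype.ext (by decide +kernel))
  rw [e, k0, k1, k2, k3, k4, k5, k6] at h
  rw [h]
  decide

/-- the trace of `om r` on `W` -/
theorem tr_Tr {b8 : ZMod 3}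
    (t8 : ∀ g : ↥P336, orderOf g = 8 → LinearMap.trace (ZMod 3) V (ρ g) = b8) :
    LinearMap.trace (ZMod 3) V (ρ R0 ∘ₗ om ρ ∘ₗ ee ρ) = b8 := by
  have h := tr_om ρ R0 (r_ee ρ)
  have k0 : tr ρ (W0 * (N0 ^ 0 * R0)) = tr ρ R0 := by
    rw [pow_zero, one_mul]
    exact tr_conj ρ cj0
  have h6 : ∀ x : ↥P336, x ^ 3 * x ^ 4 = x → x ^ 4 * (x ^ 4 * x ^ 4) = 1 → tr ρ x = tr ρ (x ^ 3) := by
    intro x h7 h12
    have h4 := tr_unip ρ (x ^ 3) (x ^ 4) (by rw [← pow_add, ← pow_add]) h12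
    rwa [h7] at h4
  have k1 : tr ρ (W0 * (N0 ^ 1 * R0)) = b8 := t8 _ (ord_eight (Subtype.ext (by decide +kernel)) (ne_sub (by decide +kernel)))
  have k2 : tr ρ (W0 * (N0 ^ 2 * R0)) = tr ρ R0 := by
    rw [h6 _ (Subtype.ext (by decide +kernel)) (Subtype.ext (by decide +kernel))]
    exact tr_conj ρ cj2
  have k3 : tr ρ (W0 * (N0 ^ 3 * R0)) = b8 := t8 _ (ord_eight (Subtype.ext (by decide +kernel)) (ne_sub (by decide +kernel)))
  have k4 : tr ρ (W0 * (N0 ^ 4 * R0)) = b8 := t8 _ (ord_eight (Subtype.ext (by decide +kernel)) (ne_sub (by decide +kernel)))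
  have k5 : tr ρ (W0 * (N0 ^ 5 * R0)) = tr ρ R0 := by
    rw [h6 _ (Subtype.ext (by decide +kernel)) (Subtype.ext (by decide +kernel))]
    exact tr_conj ρ cj5
  have k6 : tr ρ (W0 * (N0 ^ 6 * R0)) = b8 := t8 _ (ord_eight (Subtype.ext (by decide +kernel)) (ne_sub (by decide +kernel)))
  rw [k0, k1, k2, k3, k4, k5, k6] at h
  rw [h]
  have key : ∀ c b : ZMod 3, c + b + c + b + b + c + b = b := by decide
  exact key _ _

/-- **`RepH`** -/
theorem repH : RepH := by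
  intro V _ _ _ ρ B hB hs hi hV hV4a hV4b hD8a hD8b hU7 hD14 b8 hb8 t2 t4 t7 t8 ha hb hb'
  have h2 : (2 : ZMod 3) ≠ 0 := by decide
  have h1 : ((1 : ZMod 3)) * 1 = 1 := by decide
  have hm : ((-1 : ZMod 3)) * (-1) = 1 := by decide
  -- the dimensions
  have d1 := ineq_S4 ρ hB hs hi
  have d2 := dim_KK ρ
  have d3 := dim_168 ρ
  have d4 := dim_six ρ
  have d5 := split h2 (fixS ρ V4b) (ρ T0) (fun v hv => by
      obtain ⟨h3, h4⟩ := (mem_V4b ρ).1 hv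
      have h5 : ρ Z3 v = v := by rw [← Z1Z2, rmul, h4, h3]
      have e1 : Z1 * T0 = T0 * Z3 := Subtype.ext (by decide)
      have e2 : Z2 * T0 = T0 * Z2 := Subtype.ext (by decide)
      exact (mem_V4b ρ).2 ⟨by rw [← rmul, e1, rmul, h5], by rw [← rmul, e2, rmul, h4]⟩)
    (fun v _ => by rw [← rmul, T0T0, rone])
  rw [← D8b_eq] at d5
  have d6 := split h2 (fixS ρ U7) (ρ R0) (fun v hv => (mem_U7 ρ).2 (n_r ((mem_U7 ρ).1 hv))) (fun v _ => rr ρ v)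
  have e14 : fixS ρ D14 = eig (fixS ρ U7) (ρ R0) 1 := by
    ext v
    rw [mem_D14, mem_eig, mem_U7, one_smul]
  rw [← e14] at d6
  have d7 : ∀ ε : ZMod 3, finrank (ZMod 3) (XX ρ ε 1) + finrank (ZMod 3) (XX ρ ε (-1)) =
      finrank (ZMod 3) (eig (fixS ρ U7) (ρ R0) ε) := by
    intro ε
    refine split h2 (eig (fixS ρ U7) (ρ R0) ε) (sg ρ) ?_ ?_
    · intro v hv
      obtain ⟨h3, h4⟩ := mem_eig.1 hv
      exact mem_eig.2 ⟨(mem_U7 ρ).2 (n_sg ((mem_U7 ρ).1 h3)), by rw [r_sg, h4, map_smul]⟩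
    · intro v hv
      exact sg_sg ((mem_U7 ρ).1 (mem_eig.1 hv).1)
  have d8 := d7 1
  have d9 := d7 (-1)
  rw [← e14] at d8
  have d10 := split h2 (Wm ρ) (ρ R0) (fun v hv => by
      obtain ⟨h3, h4⟩ := mem_Wm.1 hv
      exact mem_Wm.2 ⟨n_r h3, by rw [← r_sg, h4, map_neg]⟩) (fun v _ => rr ρ v)
  have e10 : ∀ ε : ZMod 3, eig (Wm ρ) (ρ R0) ε = XX ρ ε (-1) := by
    intro ε
    ext v
    rw [mem_eig, mem_Wm, mem_XX, neg_smul, one_smul]
    tauto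
  rw [e10, e10] at d10
  -- the skew operator
  have i1 := ineq_W ρ hB hs hi h1
  have i2 := ineq_W ρ hB hs hi hm
  have j1 : finrank (ZMod 3) ↥(XX ρ 1 1 ⊓ LinearMap.ker (dd ρ)) ≤ finrank (ZMod 3) (fixS ρ P336) := by
    apply Submodule.finrank_mono
    rintro v ⟨hv, hd⟩
    obtain ⟨h3, h4, h5⟩ := (mem_XX ρ).1 hv
    rw [one_smul] at h4 h5
    obtain ⟨h6, h7⟩ := inv_of_ker h3 h5 (LinearMap.mem_ker.1 hd)
    exact mem_336 ρ h3 h6 h7 h4
  have j2 : finrank (ZMod 3) ↥(XX ρ (-1) 1 ⊓ LinearMap.ker (dd ρ)) ≤ finrank (ZMod 3) (antS ρ) := by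
    apply Submodule.finrank_mono
    rintro v ⟨hv, hd⟩
    obtain ⟨h3, h4, h5⟩ := (mem_XX ρ).1 hv
    rw [one_smul] at h5
    rw [neg_smul, one_smul] at h4
    obtain ⟨h6, h7⟩ := inv_of_ker h3 h5 (LinearMap.mem_ker.1 hd)
    exact mem_ant ρ h3 h6 h7 h4
  -- the traces
  have m1 := dim_mod ρ h1
  have m2 := dim_mod ρ hm
  rw [tr_T ρ hV t2 t4 t7, tr_Tr ρ t8] at m1 m2
  rw [hV4a, hD8a] at d1
  rw [hV4b, hD8b] at d5
  rw [hU7] at d6
  generalize finrank (ZMod 3) (XX ρ 1 1) = xp at *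
  generalize finrank (ZMod 3) (XX ρ 1 (-1)) = tp at *
  generalize finrank (ZMod 3) (XX ρ (-1) 1) = xm at *
  generalize finrank (ZMod 3) (XX ρ (-1) (-1)) = tm at *
  generalize finrank (ZMod 3) (fixS ρ D14) = dd14 at *
  generalize finrank (ZMod 3) (fixS ρ P336) = a at *
  generalize finrank (ZMod 3) (antS ρ) = b at *
  generalize finrank (ZMod 3) (fixS ρ P168) = p at *
  generalize finrank (ZMod 3) (S4 ρ) = f at *
  generalize finrank (ZMod 3) (KK ρ) = k at *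
  generalize finrank (ZMod 3) (Wm ρ) = wm at *
  generalize finrank (ZMod 3) (eig (fixS ρ V4b) (ρ T0) (-1)) = l at *
  generalize finrank (ZMod 3) (eig (fixS ρ U7) (ρ R0) (-1)) = y at *
  generalize finrank (ZMod 3) ↥(XX ρ 1 1 ⊓ LinearMap.ker (dd ρ)) = z1 at *
  generalize finrank (ZMod 3) ↥(XX ρ (-1) 1 ⊓ LinearMap.ker (dd ρ)) = z2 at *
  rcases hb8 with rfl | rfl
  · have n1 : ((xp : ℕ) : ZMod 3) = ((tp + 1 : ℕ) : ZMod 3) := by
      rw [Nat.cast_add, Nat.cast_one, ← sub_eq_iff_eq_add', m1]; decide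
    have n2 : ((xm : ℕ) : ZMod 3) = ((tm + 1 : ℕ) : ZMod 3) := by
      rw [Nat.cast_add, Nat.cast_one, ← sub_eq_iff_eq_add', m2]; decide
    rw [ZMod.natCast_eq_natCast_iff'] at n1 n2
    omega
  · have hb0 := hb' rfl
    have n1 : ((xp : ℕ) : ZMod 3) = ((tp + 0 : ℕ) : ZMod 3) := by
      rw [Nat.cast_add, Nat.cast_zero, ← sub_eq_iff_eq_add', m1]; decide
    have n2 : ((xm : ℕ) : ZMod 3) = ((tm + 2 : ℕ) : ZMod 3) := by
      rw [Nat.cast_add, ← sub_eq_iff_eq_add', m2]; decide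
    rw [ZMod.natCast_eq_natCast_iff'] at n1 n2
    omega

end Cfsg.Agent.H296.L7
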