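import Cfsg.Agent.H296.L7.Traces

/-!
# The small subgroups for `RepH` (S5920): steps (1), (6) of the plan
-/

set_option autoImplicit false

namespace Cfsg.Agent.H296.L7

open Cfsg.Agent.H942.L7 Module

variable {V : Type} [AddCommGroup V] [Module (ZMod 3) V] (ρ : Representation (ZMod 3) ↥P336 V)

/-! ### the space `V^{V4a}` -/

variable {ρ} in
theorem fix_A3 {v : V} (h : v ∈ fixS ρ V4a) : ρ A3 v = v := by
  obtain ⟨h1, h2⟩ := (mem_V4a ρ).1 h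
  rw [← A1A2, rmul, h2, h1]

variable {ρ} in
theorem V4a_h {v : V} (h : v ∈ fixS ρ V4a) : ρ H0 v ∈ fixS ρ V4a := by
  obtain ⟨h1, h2⟩ := (mem_V4a ρ).1 h
  have h3 := fix_A3 h
  have e1 : A1 * H0 = H0 * A3 := HA3.symm
  have e2 : A2 * H0 = H0 * A1 := HA1.symm
  exact (mem_V4a ρ).2 ⟨by rw [← rmul, e1, rmul, h3], by rw [← rmul, e2, rmul, h1]⟩

variable {ρ} in
theorem V4a_t {v : V} (h : v ∈ fixS ρ V4a) : ρ TA v ∈ fixS ρ V4a := by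
  obtain ⟨h1, h2⟩ := (mem_V4a ρ).1 h
  have h3 := fix_A3 h
  have e1 : A1 * TA = TA * A1 := TAA1.symm
  have e2 : A2 * TA = TA * A3 := TAA3.symm
  exact (mem_V4a ρ).2 ⟨by rw [← rmul, e1, rmul, h1], by rw [← rmul, e2, rmul, h3]⟩

theorem t_t (v : V) : ρ TA (ρ TA v) = v := by rw [← rmul, TATA, rone]

variable {ρ} in
theorem t_h {v : V} (h : v ∈ fixS ρ V4a) : ρ TA (ρ H0 v) = ρ H0 (ρ H0 (ρ TA v)) := by
  rw [← rmul, TAH, rmul, rmul, rmul]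
  exact ((mem_V4a ρ).1 (V4a_h (V4a_h (V4a_t h)))).2

variable {ρ} in
theorem t_dd {v : V} (h : v ∈ fixS ρ V4a) : ρ TA (dd ρ v) = - dd ρ (ρ TA v) := by
  rw [dd_apply, map_sub, t_h h, t_h (V4a_h h), t_h h, hhh, dd_apply, neg_sub]

variable {ρ} in
theorem V4a_dd {v : V} (h : v ∈ fixS ρ V4a) : dd ρ v ∈ fixS ρ V4a :=
  Submodule.sub_mem _ (V4a_h h) (V4a_h (V4a_h h))

theorem D8a_eq : fixS ρ D8a = eig (fixS ρ V4a) (ρ TA) 1 := by
  ext v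
  rw [mem_D8a, mem_eig, one_smul]

theorem D8b_eq : fixS ρ D8b = eig (fixS ρ V4b) (ρ T0) 1 := by
  ext v
  rw [mem_D8b, mem_eig, one_smul]

/-- the vectors fixed by `S4a` -/
def S4 : Submodule (ZMod 3) V := fixS ρ D8a ⊓ LinearMap.ker (dd ρ)

variable {ρ} in
theorem fix_h {v : V} (h : dd ρ v = 0) : ρ H0 v = v := by
  rw [dd_apply, sub_eq_zero] at h
  have h5 := congrArg (fun x => ρ H0 (ρ H0 x)) h
  simp only [hhh] at h5
  exact h5.symm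

variable {ρ} in
theorem mem_S4 {v : V} (h : v ∈ S4 ρ) : ρ A1 v = v ∧ ρ A2 v = v ∧ ρ A3 v = v ∧ ρ TA v = v ∧ ρ H0 v = v := by
  obtain ⟨h1, h2⟩ := h
  obtain ⟨h3, h4⟩ := (mem_D8a ρ).1 h1
  obtain ⟨h5, h6⟩ := (mem_V4a ρ).1 h3
  exact ⟨h5, h6, fix_A3 h3, h4, fix_h (LinearMap.mem_ker.1 h2)⟩

/-- **step (1)** -/
theorem ineq_S4 [Module.Finite (ZMod 3) V] {B : LinearMap.BilinForm (ZMod 3) V} (hB : B.Nondegenerate) (hs : B.IsSymm)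
    (hi : ∀ g v v', B (ρ g v) (ρ g v') = B v v') :
    3 * finrank (ZMod 3) (fixS ρ D8a) ≤ finrank (ZMod 3) (fixS ρ V4a) + 3 * finrank (ZMod 3) (S4 ρ) := by
  have h2 : (2 : ZMod 3) ≠ 0 := by decide
  have hsp := split h2 (fixS ρ V4a) (ρ TA) (fun v hv => V4a_t hv) (fun v _ => t_t ρ v)
  rw [← D8a_eq] at hsp
  -- the projection
  let q : V → V := fun x => x + ρ A1 x + ρ A2 x + ρ A3 x
  have hq : ∀ x, q x ∈ fixS ρ V4a := by
    intro x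
    have e : ∀ a b c : ↥P336, a * b = c → ρ a (ρ b x) = ρ c x := fun a b c h => by rw [← rmul, h]
    refine (mem_V4a ρ).2 ⟨?_, ?_⟩
    · show ρ A1 (x + ρ A1 x + ρ A2 x + ρ A3 x) = x + ρ A1 x + ρ A2 x + ρ A3 x
      simp only [map_add]
      rw [e _ _ _ A1A1, e _ _ _ A1A2, e _ _ _ A1A3, rone]
      abel
    · show ρ A2 (x + ρ A1 x + ρ A2 x + ρ A3 x) = x + ρ A1 x + ρ A2 x + ρ A3 x
      simp only [map_add]
      rw [e _ _ _ A2A1, e _ _ _ A2A2, e _ _ _ A2A3, rone]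
      abel
  have hB1 : ∀ u ∈ fixS ρ V4a, ∀ x, B u (q x) = B u x := by
    intro u hu x
    obtain ⟨h3, h4⟩ := (mem_V4a ρ).1 hu
    have h5 := fix_A3 hu
    have k1 : B u (ρ A1 x) = B u x := by have h := hi A1 u x; rwa [h3] at h
    have k2 : B u (ρ A2 x) = B u x := by have h := hi A2 u x; rwa [h4] at h
    have k3 : B u (ρ A3 x) = B u x := by have h := hi A3 u x; rwa [h5] at h
    show B u (x + ρ A1 x + ρ A2 x + ρ A3 x) = B u x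
    simp only [map_add, k1, k2, k3]
    exact m3 (by match_scalars; decide)
  have hin := ineq B hB hs (fixS ρ D8a) (eig (fixS ρ V4a) (ρ TA) (-1)) (dd ρ) ?_ ?_ (fun v _ => ddd ρ v)
    (fun u _ v _ => B_dd hi u v)
    (nondeg hB _ (fun x => ρ TA (q x) - q x) (fun x => mem_eig.2 ⟨Submodule.sub_mem _ (V4a_t (hq x)) (hq x), ?_⟩) ?_)
  · have e : finrank (ZMod 3) ↥(fixS ρ D8a ⊓ LinearMap.ker (dd ρ)) = finrank (ZMod 3) (S4 ρ) := rfl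
    rw [e] at hin
    omega
  · intro v hv
    obtain ⟨h3, h4⟩ := (mem_D8a ρ).1 hv
    refine mem_eig.2 ⟨V4a_dd h3, ?_⟩
    rw [t_dd h3, h4, neg_smul, one_smul]
  · intro v hv
    obtain ⟨h3, h4⟩ := mem_eig.1 hv
    refine (mem_D8a ρ).2 ⟨V4a_dd h3, ?_⟩
    rw [t_dd h3, h4, neg_smul, one_smul, map_neg, neg_neg]
  · rw [map_sub, t_t, neg_smul, one_smul, neg_sub]
  · intro u hu x
    obtain ⟨h3, h4⟩ := mem_eig.1 hu
    have k1 : B u (ρ TA (q x)) = - B u (q x) := by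
      have h := hi TA (ρ TA u) (q x)
      rw [t_t, h4, neg_smul, one_smul, map_neg, LinearMap.neg_apply] at h
      exact h
    rw [map_sub, k1, hB1 u h3]
    exact m3 (by match_scalars; decide)

/-! ### `e` maps `V^{S4a}` to the invariants -/

variable {ρ} in
theorem ee_S4 {v : V} (h : v ∈ S4 ρ) : ee ρ v ∈ fixS ρ P168 := by
  obtain ⟨a1, a2, a3, t, hh⟩ := mem_S4 h
  refine (mem_168 ρ).2 ⟨n_ee ρ v, by rw [h_ee, hh], ?_⟩
  have key : ∀ i, ρ W0 (ρ (N0 ^ i) v) = ρ (W0 * N0 ^ i) v := fun i => (rmul ρ _ _ v).symm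
  have k0 : ρ W0 (ρ (N0 ^ 0) v) = ρ (N0 ^ 0) v := by rw [key, v0, rmul, rmul, rmul, t, hh, a2]
  have k1 : ρ W0 (ρ (N0 ^ 1) v) = ρ (N0 ^ 2) v := by rw [key, v1, rmul, rmul, hh, a3]
  have k2 : ρ W0 (ρ (N0 ^ 2) v) = ρ (N0 ^ 1) v := by rw [key, v2, rmul, rmul, rmul, hh, hh, a2]
  have k3 : ρ W0 (ρ (N0 ^ 3) v) = ρ (N0 ^ 6) v := by rw [key, v3, rmul, rmul, rmul, rmul, t, hh, hh, a2]
  have k4 : ρ W0 (ρ (N0 ^ 4) v) = ρ (N0 ^ 4) v := by rw [key, v4, rmul, a1]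
  have k5 : ρ W0 (ρ (N0 ^ 5) v) = ρ (N0 ^ 5) v := by rw [key, v5, rmul, rmul, rmul, rmul, t, hh, hh, a1]
  have k6 : ρ W0 (ρ (N0 ^ 6) v) = ρ (N0 ^ 3) v := by rw [key, v6, rmul, rmul, rmul, t, hh, hh]
  rw [ee_apply]
  simp only [map_add, k0, k1, k2, k3, k4, k5, k6]
  abel

/-- `K`, the kernel of `e` on `V^{S4a}` -/
def KK : Submodule (ZMod 3) V := S4 ρ ⊓ LinearMap.ker (ee ρ)

theorem dim_KK [Module.Finite (ZMod 3) V] :
    finrank (ZMod 3) (S4 ρ) ≤ finrank (ZMod 3) (fixS ρ P168) + finrank (ZMod 3) (KK ρ) := by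
  rw [← rk (ee ρ) (S4 ρ)]
  refine Nat.add_le_add_right (Submodule.finrank_mono ?_) _
  rintro _ ⟨v, hv, rfl⟩
  exact ee_S4 hv

/-! ### step (6) -/

/-- the operator `e_λ` (up to sign) -/
def EL : V →ₗ[ZMod 3] V := LinearMap.id + ρ Z1 + ρ Z2 + ρ Z3 - (ρ T0 + ρ T1 + ρ T2 + ρ T3)

theorem EL_apply (v : V) : EL ρ v = v + ρ Z1 v + ρ Z2 v + ρ Z3 v - (ρ T0 v + ρ T1 v + ρ T2 v + ρ T3 v) := rfl

theorem EL_mem (v : V) : EL ρ v ∈ eig (fixS ρ V4b) (ρ T0) (-1) := by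
  have e : ∀ a b c : ↥P336, a * b = c → ρ a (ρ b v) = ρ c v := fun a b c h => by rw [← rmul, h]
  refine mem_eig.2 ⟨(mem_V4b ρ).2 ⟨?_, ?_⟩, ?_⟩
  · rw [EL_apply]
    simp only [map_add, map_sub]
    rw [e _ _ _ Z1Z1, e _ _ _ Z1Z2, e _ _ _ Z1Z3, e _ _ _ Z1T0, e _ _ _ Z1T1, e _ _ _ Z1T2, e _ _ _ Z1T3, rone]
    abel
  · rw [EL_apply]
    simp only [map_add, map_sub]
    rw [e _ _ _ Z2Z1, e _ _ _ Z2Z2, e _ _ _ Z2Z3, e _ _ _ Z2T0, e _ _ _ Z2T1, e _ _ _ Z2T2, e _ _ _ Z2T3, rone]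
    abel
  · rw [EL_apply]
    simp only [map_add, map_sub]
    rw [e _ _ _ T0Z1, e _ _ _ T0Z2, e _ _ _ T0Z3, e _ _ _ T0T0, e _ _ _ T0T1, e _ _ _ T0T2, e _ _ _ T0T3, rone,
      neg_smul, one_smul]
    abel

variable {ρ} in
theorem ee_EL {v : V} (hv : ρ N0 v = v) :
    ee ρ (EL ρ v) = v + om ρ v + ρ H0 (ρ H0 (om ρ v)) := by
  have z1 : ee ρ (ρ Z1 v) = ρ H0 (om ρ v) := (e_word hv 2 5).2.1
  have z2 : ee ρ (ρ Z2 v) = ρ H0 (ρ H0 (om ρ v)) := by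
    have h := (e_word hv 1 6).2.2
    rwa [pow_one] at h
  have z3 : ee ρ (ρ Z3 v) = om ρ v := (e_word hv 4 3).1
  have t0 : ee ρ (ρ T0 v) = om ρ v := (e_word hv 5 2).1
  have t1 : ee ρ (ρ T1 v) = om ρ v := (e_word hv 6 4).1
  have t2 : ee ρ (ρ T2 v) = ρ H0 (om ρ v) := by
    have h := (e_word hv 0 0).2.1
    rwa [pow_zero, one_mul, mul_one] at h
  have t3 : ee ρ (ρ T3 v) = om ρ v := by
    have h := (e_word hv 3 1).1
    rwa [pow_one] at h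
  rw [EL_apply]
  simp only [map_add, map_sub]
  rw [z1, z2, z3, t0, t1, t2, t3, ee_fix hv]
  exact m3 (by match_scalars <;> decide)

/-- the vectors of `W` with `sg = -1` -/
def Wm : Submodule (ZMod 3) V := eig (fixS ρ U7) (sg ρ) (-1)

variable {ρ} in
theorem mem_Wm {v : V} : v ∈ Wm ρ ↔ ρ N0 v = v ∧ sg ρ v = - v := by
  rw [Wm, mem_eig, mem_U7, neg_smul, one_smul]

variable {ρ} in
/-- the kernel of `e e_λ` on `W₋` -/
theorem eq_zero {v : V} (h : v ∈ Wm ρ) (h0 : ee ρ (EL ρ v) = 0) : v = 0 := by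
  obtain ⟨h1, h2⟩ := mem_Wm.1 h
  have hom : om ρ v = ρ H0 v + ρ H0 (ρ H0 v) := by
    have h3 : om ρ v = sg ρ v + (v + ρ H0 v + ρ H0 (ρ H0 v)) := by rw [sg_apply]; abel
    rw [h3, h2]
    abel
  have key : v = ee ρ (EL ρ v) + ρ H0 (ρ H0 (ee ρ (EL ρ v))) := by
    rw [ee_EL h1, hom]
    simp only [map_add, hhh]
    exact m3 (by match_scalars <;> decide)
  rw [h0, map_zero, map_zero, add_zero] at key
  exact key

/-- **step (6)** -/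
theorem dim_six [Module.Finite (ZMod 3) V] :
    finrank (ZMod 3) (Wm ρ) + finrank (ZMod 3) (KK ρ) ≤ finrank (ZMod 3) (eig (fixS ρ V4b) (ρ T0) (-1)) := by
  refine inj_le (Wm ρ) (KK ρ) _ (EL ρ) (ρ N0 - ρ (N0 ^ 4)) ?_ ?_
  · intro v _ a ha
    refine Submodule.add_mem _ (EL_mem ρ v) ?_
    obtain ⟨a1, a2, a3, t, hh⟩ := mem_S4 ha.1
    have e1 : ρ Z1 (ρ N0 a) = ρ N0 a := by rw [← rmul, Z1N, rmul, t]
    have e2 : ρ Z1 (ρ (N0 ^ 4) a) = ρ (N0 ^ 4) a := by rw [← rmul, Z1N4, rmul, a3]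
    have e3 : ρ Z2 (ρ N0 a) = ρ N0 a := by rw [← rmul, Z2N, rmul, rmul, t, a1]
    have e4 : ρ Z2 (ρ (N0 ^ 4) a) = ρ (N0 ^ 4) a := by rw [← rmul, Z2N4, rmul, rmul, rmul, t, hh, a1]
    have e5 : ρ T0 (ρ N0 a) = ρ (N0 ^ 4) a := by rw [← rmul, T0N, rmul, rmul, rmul, rmul, t, hh, hh, a2]
    have e6 : ρ T0 (ρ (N0 ^ 4) a) = ρ N0 a := by rw [← rmul, T0N4, rmul, rmul, rmul, t, hh, hh]
    refine mem_eig.2 ⟨(mem_V4b ρ).2 ⟨?_, ?_⟩, ?_⟩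
    · show ρ Z1 (ρ N0 a - ρ (N0 ^ 4) a) = ρ N0 a - ρ (N0 ^ 4) a
      rw [map_sub, e1, e2]
    · show ρ Z2 (ρ N0 a - ρ (N0 ^ 4) a) = ρ N0 a - ρ (N0 ^ 4) a
      rw [map_sub, e3, e4]
    · show ρ T0 (ρ N0 a - ρ (N0 ^ 4) a) = (-1 : ZMod 3) • (ρ N0 a - ρ (N0 ^ 4) a)
      rw [map_sub, e5, e6, neg_smul, one_smul, neg_sub]
  · intro v hv a ha h
    have hea : ee ρ a = 0 := LinearMap.mem_ker.1 ha.2
    have h0 : ee ρ (EL ρ v) = 0 := by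
      have h1 := congrArg (ee ρ) h
      have h2 : ee ρ ((ρ N0 - ρ (N0 ^ 4)) a) = 0 := by
        show ee ρ (ρ N0 a - ρ (N0 ^ 4) a) = 0
        rw [map_sub, ee_n, ee_npow, sub_self]
      rwa [map_add, h2, map_zero, add_zero] at h1
    have hv0 := eq_zero hv h0
    refine ⟨hv0, ?_⟩
    rw [hv0, map_zero, zero_add] at h
    have h3 : ρ N0 a = ρ (N0 ^ 4) a := sub_eq_zero.1 h
    -- `a` is fixed by `n`
    have h4 : ρ (N0 ^ 3) a = a := by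
      have h5 := congrArg (ρ (N0 ^ 6)) h3
      rw [← rmul, ← rmul, ← pow_succ, ← pow_add, N7, rone] at h5
      have e : N0 ^ (6 + 4) = N0 ^ 3 := by rw [show 6 + 4 = 7 + 3 from rfl, pow_add, N7, one_mul]
      rw [e] at h5
      exact h5.symm
    have h5 : ρ N0 a = a := by
      have h6 : ρ (N0 ^ 15) a = a := by
        have e : N0 ^ 15 = N0 ^ 3 * (N0 ^ 3 * (N0 ^ 3 * (N0 ^ 3 * N0 ^ 3))) := by
          rw [← pow_add, ← pow_add, ← pow_add, ← pow_add]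
        rw [e, rmul, rmul, rmul, rmul, h4, h4, h4, h4, h4]
      have e : N0 ^ 15 = N0 := by
        rw [show 15 = 7 + (7 + 1) from rfl, pow_add, pow_add, N7, one_mul, one_mul, pow_one]
      rwa [e] at h6
    rw [← ee_fix h5, hea]

/-! ### the invariants of `P168` -/

theorem dim_168 [Module.Finite (ZMod 3) V] :
    finrank (ZMod 3) (fixS ρ P168) ≤ finrank (ZMod 3) (fixS ρ P336) + finrank (ZMod 3) (antS ρ) := by
  have h2 : (2 : ZMod 3) ≠ 0 := by decide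
  rw [← split h2 (fixS ρ P168) (ρ R0) ?_ (fun v _ => rr ρ v)]
  · refine Nat.add_le_add (Submodule.finrank_mono ?_) (Submodule.finrank_mono ?_)
    · intro v hv
      obtain ⟨h3, h4⟩ := mem_eig.1 hv
      obtain ⟨h5, h6, h7⟩ := (mem_168 ρ).1 h3
      exact mem_336 ρ h5 h6 h7 (by rw [h4, one_smul])
    · intro v hv
      obtain ⟨h3, h4⟩ := mem_eig.1 hv
      obtain ⟨h5, h6, h7⟩ := (mem_168 ρ).1 h3
      exact mem_ant ρ h5 h6 h7 (by rw [h4, neg_smul, one_smul])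
  · intro v hv
    obtain ⟨h5, h6, h7⟩ := (mem_168 ρ).1 hv
    refine (mem_168 ρ).2 ⟨n_r h5, by rw [← r_h, h6], ?_⟩
    have e : W0 * R0 = R0 * W0 := RW.symm
    rw [← rmul, e, rmul, h7]

end Cfsg.Agent.H296.L7
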