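import Cfsg.Agent.H296.L7.Ops

/-!
# The subspaces for `RepH` (S5920)
-/

set_option autoImplicit false

namespace Cfsg.Agent.H296.L7

open Cfsg.Agent.H942.L7 Module

variable {V : Type} [AddCommGroup V] [Module (ZMod 3) V] (ρ : Representation (ZMod 3) ↥P336 V)

/-! ### the fixed spaces -/

theorem mem_U7 {v : V} : v ∈ fixS ρ U7 ↔ ρ N0 v = v := by
  constructor
  · intro h
    exact h N0 ⟨1, by rw [pow_one]; rfl⟩
  · rintro h g ⟨i, hg⟩
    have e : g = N0 ^ i := Subtype.ext hg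
    rw [e, npow_fix h]

theorem mem_D14 {v : V} : v ∈ fixS ρ D14 ↔ ρ N0 v = v ∧ ρ R0 v = v := by
  constructor
  · intro h
    exact ⟨h N0 ⟨1, 0, by rw [pow_one, mul_zero, pow_zero, mul_one]; rfl⟩,
      h R0 ⟨0, 1, by rw [pow_zero, mul_one, one_mul]; rfl⟩⟩
  · rintro ⟨h1, h2⟩ g ⟨i, j, hg⟩
    have e : g = N0 ^ i * R0 ^ j := Subtype.ext (by rw [hg, pow_mul]; rfl)
    have h3 : ∀ j : ℕ, ρ (R0 ^ j) v = v := by
      intro j
      induction j with
      | zero => rw [pow_zero, rone]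
      | succ j ih => rw [pow_succ', rmul, ih, h2]
    rw [e, rmul, h3, npow_fix h1]

theorem mem_V4a {v : V} : v ∈ fixS ρ V4a ↔ ρ A1 v = v ∧ ρ A2 v = v := by
  constructor
  · intro h
    exact ⟨h A1 (by rw [coe_A1]; exact Or.inr (Or.inl rfl)), h A2 (by rw [coe_A2]; exact Or.inr (Or.inr (Or.inl rfl)))⟩
  · rintro ⟨h1, h2⟩ g hg
    rcases hg with hg | hg | hg | hg
    · rw [show g = 1 from Subtype.ext hg, rone]
    · rw [show g = A1 from Subtype.ext (hg.trans coe_A1.symm), h1]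
    · rw [show g = A2 from Subtype.ext (hg.trans coe_A2.symm), h2]
    · rw [show g = A1 * A2 from Subtype.ext (hg.trans (by rw [← coe_A1, ← coe_A2]; rfl)), rmul, h2, h1]

theorem mem_V4b {v : V} : v ∈ fixS ρ V4b ↔ ρ Z1 v = v ∧ ρ Z2 v = v := by
  constructor
  · intro h
    exact ⟨h Z1 (by rw [coe_Z1]; exact Or.inr (Or.inl rfl)), h Z2 (by rw [coe_Z2]; exact Or.inr (Or.inr (Or.inl rfl)))⟩
  · rintro ⟨h1, h2⟩ g hg
    rcases hg with hg | hg | hg | hg
    · rw [show g = 1 from Subtype.ext hg, rone]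
    · rw [show g = Z1 from Subtype.ext (hg.trans coe_Z1.symm), h1]
    · rw [show g = Z2 from Subtype.ext (hg.trans coe_Z2.symm), h2]
    · rw [show g = Z1 * Z2 from Subtype.ext (hg.trans (by rw [← coe_Z1, ← coe_Z2]; rfl)), rmul, h2, h1]

theorem mem_D8a {v : V} : v ∈ fixS ρ D8a ↔ v ∈ fixS ρ V4a ∧ ρ TA v = v := by
  constructor
  · intro h
    refine ⟨fun g hg => h g (Or.inl hg), h TA (Or.inr ⟨1, Or.inl rfl, ?_⟩)⟩
    rw [coe_TA, one_mul]
  · rintro ⟨h1, h2⟩ g (hg | ⟨z, hz, hg⟩)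
    · exact h1 g hg
    · have e : g = (g * TA⁻¹) * TA := by group
      rw [e, rmul, h2]
      refine h1 _ ?_
      have e2 : ((g * TA⁻¹ : ↥P336) : Equiv.Perm (Fin 8)) = z := by
        rw [Subgroup.coe_mul, Subgroup.coe_inv, hg, coe_TA, mul_inv_cancel_right]
      rw [e2]
      exact hz

theorem mem_D8b {v : V} : v ∈ fixS ρ D8b ↔ v ∈ fixS ρ V4b ∧ ρ T0 v = v := by
  constructor
  · intro h
    refine ⟨fun g hg => h g (Or.inl hg), h T0 (Or.inr ⟨1, Or.inl rfl, ?_⟩)⟩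
    rw [coe_T0, one_mul]
  · rintro ⟨h1, h2⟩ g (hg | ⟨z, hz, hg⟩)
    · exact h1 g hg
    · have e : g = (g * T0⁻¹) * T0 := by group
      rw [e, rmul, h2]
      refine h1 _ ?_
      have e2 : ((g * T0⁻¹ : ↥P336) : Equiv.Perm (Fin 8)) = z := by
        rw [Subgroup.coe_mul, Subgroup.coe_inv, hg, coe_T0, mul_inv_cancel_right]
      rw [e2]
      exact hz

/-! ### the invariants of `P168`, `P336` -/

theorem le_168 : P168 ≤ P336 := by
  rw [P168, Subgroup.closure_le]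
  rintro g (rfl | rfl | rfl)
  · exact N0.2
  · exact H0.2
  · exact W0.2

theorem mem_168 {v : V} : v ∈ fixS ρ P168 ↔ ρ N0 v = v ∧ ρ H0 v = v ∧ ρ W0 v = v := by
  constructor
  · intro h
    exact ⟨h N0 (Subgroup.subset_closure (by simp [coe_N0])), h H0 (Subgroup.subset_closure (by simp [coe_H0])),
      h W0 (Subgroup.subset_closure (by simp [coe_W0]))⟩
  · rintro ⟨h1, h2, h3⟩ g hg
    have key : ∀ g (hg : g ∈ P168), ρ ⟨g, le_168 hg⟩ v = v := by
      intro g hg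
      induction hg using Subgroup.closure_induction with
      | mem x hx =>
        rcases hx with rfl | rfl | rfl
        · exact h1
        · exact h2
        · exact h3
      | one => exact rone ρ v
      | mul x y hx hy ihx ihy =>
        have e : (⟨x * y, le_168 (mul_mem hx hy)⟩ : ↥P336) = ⟨x, le_168 hx⟩ * ⟨y, le_168 hy⟩ := rfl
        exact (congrArg (fun t => ρ t v) e).trans (by rw [rmul]; rw [ihy, ihx])
      | inv x hx ih =>
        have e : (⟨x⁻¹, le_168 (inv_mem hx)⟩ : ↥P336) = (⟨x, le_168 hx⟩ : ↥P336)⁻¹ := rfl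
        refine (congrArg (fun t => ρ t v) e).trans ?_
        show ρ (⟨x, le_168 hx⟩ : ↥P336)⁻¹ v = v
        nth_rewrite 1 [← ih]
        rw [← rmul, inv_mul_cancel, rone]
    exact key g hg

theorem mem_336 {v : V} (h1 : ρ N0 v = v) (h2 : ρ H0 v = v) (h3 : ρ W0 v = v) (h4 : ρ R0 v = v) :
    v ∈ fixS ρ P336 := by
  have h5 : ρ G0 v = v := by rw [G0_eq, rmul, rmul, h2, h2, h4]
  intro g _
  have key : ∀ g (hg : g ∈ P336), ρ ⟨g, hg⟩ v = v := by
    intro g hg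
    induction hg using Subgroup.closure_induction with
    | mem x hx =>
      rcases hx with rfl | rfl | rfl
      · exact h1
      · exact h5
      · exact h3
    | one => exact rone ρ v
    | mul x y hx hy ihx ihy =>
      have e : (⟨x * y, mul_mem hx hy⟩ : ↥P336) = ⟨x, hx⟩ * ⟨y, hy⟩ := rfl
      exact (congrArg (fun t => ρ t v) e).trans (by rw [rmul]; rw [ihy, ihx])
    | inv x hx ih =>
      have e : (⟨x⁻¹, inv_mem hx⟩ : ↥P336) = (⟨x, hx⟩ : ↥P336)⁻¹ := rfl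
      refine (congrArg (fun t => ρ t v) e).trans ?_
      show ρ (⟨x, hx⟩ : ↥P336)⁻¹ v = v
      nth_rewrite 1 [← ih]
      rw [← rmul, inv_mul_cancel, rone]
  exact key g g.2

theorem conj_168 {g : Equiv.Perm (Fin 8)} (hg : g ∈ P168) : g6 ^ 3 * g * g6 ^ 3 ∈ P168 := by
  have e : (g6 ^ 3)⁻¹ = g6 ^ 3 := by decide
  have h : g ∈ (P168).comap (MulAut.conj (g6 ^ 3)).toMonoidHom := by
    rw [P168] at hg
    refine (Subgroup.closure_le _).2 ?_ hg
    rintro x (rfl | rfl | rfl)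
    · show g6 ^ 3 * nn * (g6 ^ 3)⁻¹ ∈ P168
      rw [show g6 ^ 3 * nn * (g6 ^ 3)⁻¹ = nn⁻¹ from by decide]
      exact inv_mem (Subgroup.subset_closure (by simp))
    · show g6 ^ 3 * g6 ^ 2 * (g6 ^ 3)⁻¹ ∈ P168
      rw [show g6 ^ 3 * g6 ^ 2 * (g6 ^ 3)⁻¹ = g6 ^ 2 from by decide]
      exact Subgroup.subset_closure (by simp)
    · show g6 ^ 3 * ww * (g6 ^ 3)⁻¹ ∈ P168
      rw [show g6 ^ 3 * ww * (g6 ^ 3)⁻¹ = ww from by decide]
      exact Subgroup.subset_closure (by simp)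
  have h2 : g6 ^ 3 * g * (g6 ^ 3)⁻¹ ∈ P168 := h
  rwa [e] at h2

/-- `P168` has index two -/
theorem or_168 {g : Equiv.Perm (Fin 8)} (hg : g ∈ P336) : g ∈ P168 ∨ g6 ^ 3 * g ∈ P168 := by
  have rr6 : g6 ^ 3 * g6 ^ 3 = 1 := by decide
  induction hg using Subgroup.closure_induction with
  | mem x hx =>
    rcases hx with rfl | rfl | rfl
    · exact Or.inl (Subgroup.subset_closure (by simp))
    · refine Or.inr ?_
      rw [show g6 ^ 3 * g6 = g6 ^ 2 * g6 ^ 2 from by decide]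
      exact mul_mem (Subgroup.subset_closure (by simp)) (Subgroup.subset_closure (by simp))
    · exact Or.inl (Subgroup.subset_closure (by simp))
  | one => exact Or.inl (one_mem _)
  | mul x y _ _ ihx ihy =>
    rcases ihx with ihx | ihx <;> rcases ihy with ihy | ihy
    · exact Or.inl (mul_mem ihx ihy)
    · refine Or.inr ?_
      have e : g6 ^ 3 * (x * y) = (g6 ^ 3 * x * g6 ^ 3) * (g6 ^ 3 * y) := by
        rw [mul_assoc (g6 ^ 3 * x), ← mul_assoc (g6 ^ 3) (g6 ^ 3) y, rr6, one_mul, mul_assoc]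
      rw [e]
      exact mul_mem (conj_168 ihx) ihy
    · refine Or.inr ?_
      rw [← mul_assoc]
      exact mul_mem ihx ihy
    · refine Or.inl ?_
      have e : x * y = (g6 ^ 3 * (g6 ^ 3 * x) * g6 ^ 3) * (g6 ^ 3 * y) := by
        rw [← mul_assoc (g6 ^ 3) (g6 ^ 3) x, rr6, one_mul, mul_assoc, ← mul_assoc (g6 ^ 3) (g6 ^ 3) y, rr6, one_mul]
      rw [e]
      exact mul_mem (conj_168 ihx) ihy
  | inv x _ ih =>
    rcases ih with ih | ih
    · exact Or.inl (inv_mem ih)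
    · refine Or.inr ?_
      have h1 := conj_168 (inv_mem ih)
      have e : g6 ^ 3 * (g6 ^ 3 * x)⁻¹ * g6 ^ 3 = g6 ^ 3 * x⁻¹ := by
        rw [mul_inv_rev, mul_assoc, mul_assoc, inv_mul_cancel, mul_one]
      rwa [e] at h1

theorem mem_ant {v : V} (h1 : ρ N0 v = v) (h2 : ρ H0 v = v) (h3 : ρ W0 v = v) (h4 : ρ R0 v = -v) :
    v ∈ antS ρ := by
  have h5 := (mem_168 ρ).2 ⟨h1, h2, h3⟩
  intro g
  refine ⟨fun hg => h5 g hg, fun hg => ?_⟩
  have h6 := (or_168 g.2).resolve_left hg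
  have h7 := h5 (R0 * g) h6
  rw [rmul] at h7
  have h8 := congrArg (ρ R0) h7
  rw [rr, h4] at h8
  exact h8

end Cfsg.Agent.H296.L7
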