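import Cfsg.Agent.H296.L7.Core

/-!
# The traces for `RepH` (S5920)
-/

set_option autoImplicit false

namespace Cfsg.Agent.H296.L7

open Cfsg.Agent.H942.L7 Module

variable {V : Type} [AddCommGroup V] [Module (ZMod 3) V] (ρ : Representation (ZMod 3) ↥P336 V)

/-- the trace of the representation -/
noncomputable def tr (g : ↥P336) : ZMod 3 := LinearMap.trace (ZMod 3) V (ρ g)

theorem tr_comm (a b : ↥P336) : tr ρ (a * b) = tr ρ (b * a) := by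
  unfold tr
  rw [map_mul ρ, map_mul ρ, LinearMap.trace_mul_comm]

theorem tr_conj {a b g : ↥P336} (h : g * a = b * g) : tr ρ b = tr ρ a := by
  have e : b = g * (a * g⁻¹) := by rw [← mul_assoc, h, mul_inv_cancel_right]
  rw [e, tr_comm, inv_mul_cancel_right]

/-- the unipotent part does not change the trace -/
theorem tr_unip (s c : ↥P336) (hsc : s * c = c * s) (hc : c * (c * c) = 1) : tr ρ (s * c) = tr ρ s := by
  have hcc : ∀ v, ρ c (ρ c (ρ c v)) = v := by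
    intro v
    rw [← rmul, ← rmul, mul_assoc, hc, rone]
  have h1 : (ρ c - 1 : Module.End (ZMod 3) V) ^ 3 = 0 := by
    ext v
    simp only [pow_succ, pow_zero, one_mul, Module.End.mul_apply, LinearMap.sub_apply, Module.End.one_apply, map_sub,
      hcc, LinearMap.zero_apply]
    exact m3 (by match_scalars <;> decide)
  have h2 : Commute (ρ s) (ρ c - 1 : Module.End (ZMod 3) V) := by
    refine Commute.sub_right ?_ (Commute.one_right _)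
    show ρ s * ρ c = ρ c * ρ s
    rw [← map_mul, hsc, map_mul]
  have h3 : (ρ s * (ρ c - 1) : Module.End (ZMod 3) V) ^ 3 = 0 := by
    rw [h2.mul_pow, h1, mul_zero]
  have h4 := tr_nil _ _ h3
  rw [mul_sub, mul_one, map_sub, ← map_mul, sub_eq_zero] at h4
  exact h4

theorem tr_one [Module.Finite (ZMod 3) V] : tr ρ 1 = (finrank (ZMod 3) V : ZMod 3) := by
  unfold tr
  rw [map_one, LinearMap.trace_one]

/-- `1 + h + h²` -/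
def NN : V →ₗ[ZMod 3] V := LinearMap.id + ρ H0 + ρ H0 ∘ₗ ρ H0

theorem NN_apply (v : V) : NN ρ v = v + ρ H0 v + ρ H0 (ρ H0 v) := rfl

theorem sg_eq (v : V) : sg ρ v = om ρ v - NN ρ v := rfl

theorem NN_NN (v : V) : NN ρ (NN ρ v) = 0 := by
  simp only [NN_apply, map_add, hhh]
  exact m3 (by match_scalars <;> decide)

variable {ρ} in
theorem n_NN {v : V} (hv : ρ N0 v = v) : ρ N0 (NN ρ v) = NN ρ v := by
  rw [NN_apply, map_add, map_add, n_h (n_h hv), n_h hv, hv]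

theorem r_NN (v : V) : ρ R0 (NN ρ v) = NN ρ (ρ R0 v) := by
  simp only [NN_apply, map_add, r_h]

/-- the trace of `g om e` -/
theorem tr_om (g : ↥P336) (hg : ∀ v, ρ g (ee ρ v) = ee ρ (ρ g v)) :
    LinearMap.trace (ZMod 3) V (ρ g ∘ₗ om ρ ∘ₗ ee ρ) = tr ρ (W0 * (N0 ^ 0 * g)) + tr ρ (W0 * (N0 ^ 1 * g)) +
      tr ρ (W0 * (N0 ^ 2 * g)) + tr ρ (W0 * (N0 ^ 3 * g)) + tr ρ (W0 * (N0 ^ 4 * g)) + tr ρ (W0 * (N0 ^ 5 * g)) +
      tr ρ (W0 * (N0 ^ 6 * g)) := by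
  have e1 : ρ g ∘ₗ om ρ ∘ₗ ee ρ = (ee ρ * (ρ g * (ρ W0 * ee ρ)) : Module.End (ZMod 3) V) := by
    ext v
    exact hg _
  have e2 : (ρ g * (ρ W0 * ee ρ) * ee ρ : Module.End (ZMod 3) V) = ρ g * (ρ W0 * ee ρ) := by
    ext v
    show ρ g (ρ W0 (ee ρ (ee ρ v))) = ρ g (ρ W0 (ee ρ v))
    rw [ee_ee]
  have e3 : (ρ g * (ρ W0 * ee ρ) : Module.End (ZMod 3) V) = ρ (g * (W0 * N0 ^ 0)) + ρ (g * (W0 * N0 ^ 1)) +
      ρ (g * (W0 * N0 ^ 2)) + ρ (g * (W0 * N0 ^ 3)) + ρ (g * (W0 * N0 ^ 4)) + ρ (g * (W0 * N0 ^ 5)) +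
      ρ (g * (W0 * N0 ^ 6)) := by
    ext v
    show ρ g (ρ W0 (ee ρ v)) = ρ (g * (W0 * N0 ^ 0)) v + ρ (g * (W0 * N0 ^ 1)) v +
      ρ (g * (W0 * N0 ^ 2)) v + ρ (g * (W0 * N0 ^ 3)) v + ρ (g * (W0 * N0 ^ 4)) v + ρ (g * (W0 * N0 ^ 5)) v +
      ρ (g * (W0 * N0 ^ 6)) v
    rw [ee_apply]
    simp only [map_add, rmul]
  have e4 : ∀ i, tr ρ (g * (W0 * N0 ^ i)) = tr ρ (W0 * (N0 ^ i * g)) := by
    intro i
    rw [tr_comm, mul_assoc]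
  rw [e1, LinearMap.trace_mul_comm, e2, e3]
  simp only [map_add]
  show tr ρ (g * (W0 * N0 ^ 0)) + tr ρ (g * (W0 * N0 ^ 1)) + tr ρ (g * (W0 * N0 ^ 2)) + tr ρ (g * (W0 * N0 ^ 3)) +
    tr ρ (g * (W0 * N0 ^ 4)) + tr ρ (g * (W0 * N0 ^ 5)) + tr ρ (g * (W0 * N0 ^ 6)) = _
  simp only [e4]

/-- the trace of `g N e` -/
theorem tr_NN (g : ↥P336) (hg : ∀ v, ρ N0 v = v → ρ N0 (ρ g v) = ρ g v) (hg2 : ∀ v, ρ g (NN ρ v) = NN ρ (ρ g v)) :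
    LinearMap.trace (ZMod 3) V (ρ g ∘ₗ NN ρ ∘ₗ ee ρ) = 0 := by
  refine tr_nil _ 2 ?_
  rw [pow_two]
  ext v
  show ρ g (NN ρ (ee ρ (ρ g (NN ρ (ee ρ v))))) = 0
  rw [ee_fix (hg _ (n_NN (n_ee ρ v))), ← hg2, NN_NN, map_zero, map_zero]

/-- **the dimensions modulo 3** -/
theorem dim_mod [Module.Finite (ZMod 3) V] {ε : ZMod 3} (hε : ε * ε = 1) :
    (finrank (ZMod 3) (XX ρ ε 1) : ZMod 3) - (finrank (ZMod 3) (XX ρ ε (-1)) : ZMod 3) =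
      2 * (LinearMap.trace (ZMod 3) V (om ρ ∘ₗ ee ρ) + ε * LinearMap.trace (ZMod 3) V (ρ R0 ∘ₗ om ρ ∘ₗ ee ρ)) := by
  have h1 : ((1 : ZMod 3)) * 1 = 1 := by decide
  have hm : ((-1 : ZMod 3)) * (-1) = 1 := by decide
  rw [← tr_proj (PP ρ ε 1) (XX ρ ε 1) (PP_mem hε h1) (fun x hx => PP_fix hε h1 hx),
    ← tr_proj (PP ρ ε (-1)) (XX ρ ε (-1)) (PP_mem hε hm) (fun x hx => PP_fix hε hm hx), ← map_sub]
  have e : PP ρ ε 1 - PP ρ ε (-1) = (2 : ZMod 3) • ((om ρ ∘ₗ ee ρ - ρ 1 ∘ₗ NN ρ ∘ₗ ee ρ) +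
      ε • (ρ R0 ∘ₗ om ρ ∘ₗ ee ρ - ρ R0 ∘ₗ NN ρ ∘ₗ ee ρ)) := by
    ext x
    show PP ρ ε 1 x - PP ρ ε (-1) x = (2 : ZMod 3) • ((om ρ (ee ρ x) - ρ 1 (NN ρ (ee ρ x))) +
      ε • (ρ R0 (om ρ (ee ρ x)) - ρ R0 (NN ρ (ee ρ x))))
    rw [PP_apply, PP_apply, rone, ← map_sub, ← sg_eq]
    simp only [map_add, map_smul]
    module
  rw [e, map_smul, map_add, map_smul, map_sub, map_sub,
    tr_NN ρ 1 (fun v hv => by rw [rone, hv]) (fun v => by rw [rone, rone]),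
    tr_NN ρ R0 (fun v hv => n_r hv) (r_NN ρ), sub_zero, sub_zero]
  rfl

end Cfsg.Agent.H296.L7
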